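import Mathlib
import Cfsg.Agent.H498.Ab.Def
import Cfsg.Agent.H993.AbTool
import Cfsg.Agent.H993.AbMathieu
import Cfsg.Agent.CoOneType.SignFacts

/-!
# Abelian subgroups of the Conway groups, tools (helper157, for S2501)

* `abLE_index`, `abLE_simple`, `abLE_extra` (abelian subgroups of groups of extraspecial type);
* `card_perm_le` : an abelian group of pairs (sign change, permutation).
-/

set_option autoImplicit false

namespace Cfsg.Agent.H157.Ab.CoTool

open Subgroup Cfsg.Agent.H498.Ab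

section

variable {G : Type*} [Group G] [Finite G]

/-- a simple group: the Chermak-Delgado bound -/
theorem abLE_simple [IsSimpleGroup G] (hna : ¬ IsMulCommutative G) {b : ℕ} (hb : Nat.card G < (b + 1) ^ 2) :
    AbLE b G := by
  refine H993.AbTool.abLE_of_normal (l := 1) (fun L hL hab => ?_) (by rw [one_mul]; exact hb)
  rcases hL.eq_bot_or_eq_top with h | h
  · rw [h, Subgroup.card_bot]
  · exfalso
    apply hna
    refine ⟨⟨fun a b => ?_⟩⟩
    exact hab a (h ▸ mem_top a) b (h ▸ mem_top b)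

/-- a subgroup of small index -/
theorem abLE_of_le {b k : ℕ} {C H : Subgroup G} (hHC : H ≤ C) (hk : Nat.card C ≤ k * Nat.card H) (h : AbLE b H) :
    AbLE (b * k) C := by
  have h1 : AbLE b ↥(H.subgroupOf C) := h.congr (subgroupOfEquivOfLe hHC).symm
  have h2 := AbLE.of_index (H.subgroupOf C) h1
  refine h2.mono (Nat.mul_le_mul_left _ ?_)
  have h3 := (H.subgroupOf C).card_mul_index
  rw [Nat.card_congr (subgroupOfEquivOfLe hHC).toEquiv] at h3
  rw [← h3, mul_comm] at hk
  exact Nat.le_of_mul_le_mul_right hk Nat.card_pos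

omit [Finite G] in
theorem abLE_conj {b : ℕ} (g x : G) (h : AbLE b ↥(centralizer ({x} : Set G))) :
    AbLE b ↥(centralizer ({g * x * g⁻¹} : Set G)) := by
  have h1 : (centralizer ({x} : Set G)).map (MulAut.conj g).toMonoidHom = centralizer ({g * x * g⁻¹} : Set G) := by
    ext y
    constructor
    · rintro ⟨c, hc, rfl⟩
      have hc' := mem_centralizer_singleton_iff.1 hc
      rw [mem_centralizer_singleton_iff]
      show g * c * g⁻¹ * (g * x * g⁻¹) = g * x * g⁻¹ * (g * c * g⁻¹)
      calc g * c * g⁻¹ * (g * x * g⁻¹) = g * (c * x) * g⁻¹ := by group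
        _ = g * (x * c) * g⁻¹ := by rw [hc']
        _ = _ := by group
    · intro hy
      rw [mem_centralizer_singleton_iff] at hy
      refine ⟨g⁻¹ * y * g, mem_centralizer_singleton_iff.2 ?_, ?_⟩
      · calc g⁻¹ * y * g * x = g⁻¹ * (y * (g * x * g⁻¹)) * g := by group
          _ = g⁻¹ * (g * x * g⁻¹ * y) * g := by rw [hy]
          _ = _ := by group
      · show g * (g⁻¹ * y * g) * g⁻¹ = y
        group
  rw [← h1]
  exact h.congr ((centralizer ({x} : Set G)).equivMapOfInjective _ (MulAut.conj g).injective)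

/-- `|A|³ < |G|` for the abelian subgroups of even order (or order divisible by `p`) -/
theorem at3_of_cent' {p : ℕ} (hp : p.Prime)
    (h : ∀ x : G, orderOf x = p → ∃ b, AbLE b ↥(centralizer ({x} : Set G)) ∧ b ^ 3 < Nat.card G) :
    H993.AbTool.At3 p G := by
  intro A hA hd
  obtain ⟨x, hx, hxA, -⟩ := H993.AbTool.exists_le_cent hp hA hd
  obtain ⟨b, hb, hb3⟩ := h x hx
  exact (Nat.pow_le_pow_left (card_le_of_mem hb hA hxA) 3).trans_lt hb3

end

/-- Abelian subgroups of a group of extraspecial type. -/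
theorem card_sq_le {E : Type*} [Group E] [Finite E] {z : E} (hz : ∀ a : E, a * z = z * a) (hzz : z * z = 1)
    (hc : ∀ a b : E, a * b = b * a ∨ a * b = z * (b * a)) (hcen : ∀ a : E, (∀ b, a * b = b * a) → a = 1 ∨ a = z)
    {A : Subgroup E} (hA : IsMulCommutative A) : Nat.card A ^ 2 ≤ 2 * Nat.card E := by
  classical
  have hAc := comm_iff.1 hA
  by_cases hz1 : z = 1
  · subst hz1
    have h1 : ∀ a : E, a = 1 := fun a => by
      rcases hcen a fun b => by rcases hc a b with h | h; exacts [h, by rw [h, one_mul]] with h | h <;> exact h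
    have : Subsingleton E := ⟨fun a b => (h1 a).trans (h1 b).symm⟩
    have h2 : Nat.card A ≤ 1 := Finite.card_le_one_iff_subsingleton.2 inferInstance
    have h3 : 0 < Nat.card E := Nat.card_pos
    have h4 : Nat.card A ^ 2 ≤ 1 ^ 2 := Nat.pow_le_pow_left h2 2
    omega
  -- the sign
  let f : E → E → ℤ := fun a b => if a * b = b * a then 1 else -1
  have hmulL : ∀ a a' b : E, f (a * a') b = f a b * f a' b := by
    intro a a' b
    have key : ∀ x y : E, x * y = y * x ∨ (x * y = z * (y * x) ∧ x * y ≠ y * x) := by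
      intro x y
      by_cases h : x * y = y * x
      · exact Or.inl h
      · exact Or.inr ⟨(hc x y).resolve_left h, h⟩
    simp only [f]
    rcases key a b with h1 | ⟨h1, h1'⟩ <;> rcases key a' b with h2 | ⟨h2, h2'⟩
    · have : a * a' * b = b * (a * a') := by rw [mul_assoc, h2, ← mul_assoc, h1, mul_assoc]
      rw [if_pos this, if_pos h1, if_pos h2]; norm_num
    · have h3 : a * a' * b = z * (b * (a * a')) := by
        rw [mul_assoc, h2, ← mul_assoc a z, hz a, mul_assoc z a, ← mul_assoc a b, h1, mul_assoc b a]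
      have : ¬ a * a' * b = b * (a * a') := fun h => hz1 (by
        rw [h] at h3; exact mul_right_cancel (b := b * (a * a')) (h3.symm.trans (one_mul _).symm))
      rw [if_neg this, if_pos h1, if_neg h2']; norm_num
    · have h3 : a * a' * b = z * (b * (a * a')) := by
        rw [mul_assoc, h2, ← mul_assoc, h1, mul_assoc z, mul_assoc b]
      have : ¬ a * a' * b = b * (a * a') := fun h => hz1 (by
        rw [h] at h3; exact mul_right_cancel (b := b * (a * a')) (h3.symm.trans (one_mul _).symm))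
      rw [if_neg this, if_neg h1', if_pos h2]; norm_num
    · have h3 : a * a' * b = b * (a * a') := by
        rw [mul_assoc, h2, ← mul_assoc a z, hz a, mul_assoc z a, ← mul_assoc a b, h1, mul_assoc z (b * a),
          ← mul_assoc z z, hzz, one_mul, mul_assoc b a]
      rw [if_pos h3, if_neg h1', if_neg h2']; norm_num
  have hsymm : ∀ a b : E, f a b = f b a := by
    intro a b
    simp only [f]
    by_cases h : a * b = b * a
    · rw [if_pos h, if_pos h.symm]
    · rw [if_neg h, if_neg (Ne.symm h)]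
  have := Fintype.ofFinite E
  have : Fintype A := Fintype.ofFinite A
  -- sum over a subgroup
  have hsum : ∀ (B : Subgroup E) [Fintype B] (r : E), (∃ b ∈ B, f b r = -1) → ∑ a : B, f a r = 0 := by
    intro B _ r ⟨b, hb, hbr⟩
    have h1 : ∑ a : B, f ((⟨b, hb⟩ : B) * a : B) r = ∑ a : B, f a r :=
      Fintype.sum_bijective _ (Group.mulLeft_bijective (⟨b, hb⟩ : B)) _ _ fun _ => rfl
    have h2 : ∑ a : B, f ((⟨b, hb⟩ : B) * a : B) r = - ∑ a : B, f a r := by
      rw [← Finset.sum_neg_distrib]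
      refine Finset.sum_congr rfl fun a _ => ?_
      show f (b * a) r = _
      rw [hmulL, hbr]
      ring
    omega
  have hval : ∀ a b : E, f a b = 1 ∨ f a b = -1 := by
    intro a b
    simp only [f]
    split_ifs <;> simp
  have h1iff : ∀ a b : E, f a b = 1 ↔ a * b = b * a := by
    intro a b
    simp only [f]
    split_ifs with h
    · simp [h]
    · simp [h]
  let S : ℤ := ∑ r : E, ∑ a : A, f a r
  have hS1 : S ≤ 2 * Fintype.card E := by
    have e : S = ∑ a : A, ∑ r : E, f r a := by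
      show ∑ r : E, ∑ a : A, f a r = _
      rw [Finset.sum_comm]
      exact Finset.sum_congr rfl fun a _ => Finset.sum_congr rfl fun r _ => hsymm _ _
    rw [e]
    have h1 : ∀ a : A, ∑ r : E, f r a = if ((a : E) = 1 ∨ (a : E) = z) then (Fintype.card E : ℤ) else 0 := by
      intro a
      split_ifs with h
      · have h2 : ∀ r : E, f r a = 1 := by
          intro r
          rw [h1iff]
          rcases h with h | h
          · rw [h, mul_one, one_mul]
          · rw [h]; exact hz r
        rw [Finset.sum_congr rfl fun r _ => h2 r, Finset.sum_const, Finset.card_univ, nsmul_eq_mul, mul_one]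
      · have h2 : ∃ r : E, f r a = -1 := by
          by_contra hcon
          push Not at hcon
          apply h
          refine hcen a fun b => ?_
          have := (hval b a).resolve_right (hcon b)
          exact ((h1iff _ _).1 this).symm
        obtain ⟨r, hr⟩ := h2
        have h3 := hsum ⊤ (a : E) ⟨r, mem_top r, hr⟩
        rw [← h3]
        exact (Fintype.sum_equiv (Subgroup.topEquiv (G := E)).toEquiv _ _ fun _ => rfl).symm
    rw [Finset.sum_congr rfl fun a _ => h1 a, ← Finset.sum_filter, Finset.sum_const, nsmul_eq_mul]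
    refine mul_le_mul_of_nonneg_right ?_ (by positivity)
    have h2 : (Finset.univ.filter fun a : A => (a : E) = 1 ∨ (a : E) = z).card ≤ ({1, z} : Finset E).card := by
      refine Finset.card_le_card_of_injOn (fun a => (a : E)) ?_ (Subtype.val_injective.injOn)
      intro a ha
      have := (Finset.mem_filter.1 ha).2
      simpa using this
    have h3 : ({1, z} : Finset E).card ≤ 2 := Finset.card_le_two
    exact_mod_cast h2.trans h3
  have hS2 : (Fintype.card A : ℤ) * Fintype.card A ≤ S := by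
    have h0 : ∀ r : E, 0 ≤ ∑ a : A, f a r := by
      intro r
      by_cases h : ∃ b ∈ A, f b r = -1
      · rw [hsum A r h]
      · push Not at h
        refine Finset.sum_nonneg fun a _ => ?_
        have := (hval a r).resolve_right (h a a.2)
        rw [this]; norm_num
    have h1 : ∑ r : A, ∑ a : A, f a r ≤ S := by
      have e : ∑ r : A, ∑ a : A, f a r = ∑ r ∈ (Finset.univ.image (fun r : A => (r : E))), ∑ a : A, f a r := by
        rw [Finset.sum_image]
        intro a _ b _ h
        exact Subtype.ext h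
      rw [e]
      exact Finset.sum_le_sum_of_subset_of_nonneg (Finset.subset_univ _) fun r _ _ => h0 r
    refine le_trans (le_of_eq ?_) h1
    have h2 : ∀ r a : A, f a r = 1 := fun r a => (h1iff _ _).2 (hAc a a.2 r r.2)
    simp only [h2, Finset.sum_const, Finset.card_univ, nsmul_eq_mul, mul_one]
  have h5 := hS2.trans hS1
  rw [Nat.card_eq_fintype_card, Nat.card_eq_fintype_card, pow_two]
  exact_mod_cast h5

end Cfsg.Agent.H157.Ab.CoTool

namespace Cfsg.Agent.H157.Ab.CoTool

open Subgroup Cfsg Cfsg.Spor Cfsg.Agent.H498.Ab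
open Cfsg.Agent.CoOneType.SignFacts (sup wt notMem_sup mem_sup)

section mono

variable {X : Type*} [Group X] [Finite X] {A : Subgroup X} {s : golayCode → M24 → X}

/-- the group of permutations -/
def permG (A : Subgroup X) (s : golayCode → M24 → X) (hex : ∀ a ∈ A, ∃ c σ, a = s c σ)
    (hmul : ∀ c σ d τ, ∃ e, s c σ * s d τ = s e (σ * τ)) (hinj : ∀ c σ d τ, s c σ = s d τ → σ = τ) :
    Subgroup (Equiv.Perm GolayPt) where
  carrier := {σ | ∃ h : σ ∈ M24, ∃ c, s c ⟨σ, h⟩ ∈ A}
  one_mem' := by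
    obtain ⟨c, σ, h⟩ := hex 1 A.one_mem
    obtain ⟨e, he⟩ := hmul c σ c σ
    rw [← h, one_mul] at he
    have h1 := hinj _ _ _ _ (h.symm.trans he)
    have h2 : σ = 1 := (left_eq_mul.1 h1)
    subst h2
    exact ⟨M24.one_mem, c, by rw [show (⟨1, M24.one_mem⟩ : M24) = 1 from rfl, ← h]; exact A.one_mem⟩
  mul_mem' := by
    rintro σ τ ⟨hσ, c, hc⟩ ⟨hτ, d, hd⟩
    obtain ⟨e, he⟩ := hmul c ⟨σ, hσ⟩ d ⟨τ, hτ⟩
    exact ⟨M24.mul_mem hσ hτ, e, by
      rw [show (⟨σ * τ, M24.mul_mem hσ hτ⟩ : M24) = ⟨σ, hσ⟩ * ⟨τ, hτ⟩ from rfl, ← he]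
      exact A.mul_mem hc hd⟩
  inv_mem' := by
    rintro σ ⟨hσ, c, hc⟩
    obtain ⟨d, τ, hd⟩ := hex _ (A.inv_mem hc)
    obtain ⟨e, he⟩ := hmul c ⟨σ, hσ⟩ d τ
    rw [← hd, mul_inv_cancel] at he
    obtain ⟨c', σ', h'⟩ := hex 1 A.one_mem
    obtain ⟨e', he'⟩ := hmul c' σ' c' σ'
    rw [← h', one_mul] at he'
    have h2 : σ' = 1 := left_eq_mul.1 (hinj _ _ _ _ (h'.symm.trans he'))
    have h3 : (⟨σ, hσ⟩ : M24) * τ = 1 := by
      rw [← h2]
      exact (hinj _ _ _ _ (h'.symm.trans he)).symm
    have h4 : (⟨σ, hσ⟩ : M24)⁻¹ = τ := inv_eq_of_mul_eq_one_right h3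
    refine ⟨M24.inv_mem hσ, d, ?_⟩
    rw [show (⟨σ⁻¹, M24.inv_mem hσ⟩ : M24) = (⟨σ, hσ⟩ : M24)⁻¹ from rfl, h4, ← hd]
    exact A.inv_mem hc

/-- An abelian group of monomial elements. -/
theorem card_mono_le (hA : IsMulCommutative A) (hex : ∀ a ∈ A, ∃ c σ, a = s c σ)
    (hmul : ∀ c σ d τ, ∃ e, s c σ * s d τ = s e (σ * τ)) (hinj : ∀ c σ d τ, s c σ = s d τ → σ = τ) {k t : ℕ}
    (hk : ∀ σ, Nat.card {c // s c σ ∈ A} ≤ k)
    (ht : ∀ T : Subgroup (Equiv.Perm GolayPt), IsMulCommutative T →
      (∀ σ ∈ T, ∃ h : σ ∈ M24, ∃ c, s c ⟨σ, h⟩ ∈ A) → Nat.card T ≤ t) : Nat.card A ≤ k * t := by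
  classical
  have hAc := comm_iff.1 hA
  let T := permG A s hex hmul hinj
  have hT : Nat.card T ≤ t := by
    refine ht T ?_ fun σ hσ => hσ
    rw [comm_iff]
    rintro σ ⟨hσ, c, hc⟩ τ ⟨hτ, d, hd⟩
    obtain ⟨e, he⟩ := hmul c ⟨σ, hσ⟩ d ⟨τ, hτ⟩
    obtain ⟨e', he'⟩ := hmul d ⟨τ, hτ⟩ c ⟨σ, hσ⟩
    have h1 := hinj _ _ _ _ (he.symm.trans ((hAc _ hc _ hd).trans he'))
    exact congrArg Subtype.val h1
  have hex' : ∀ a : A, ∃ x : golayCode × T, ∃ h : ((x.2 : Equiv.Perm GolayPt) ∈ M24), (a : X) = s x.1 ⟨x.2, h⟩ := by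
    rintro ⟨a, ha⟩
    obtain ⟨c, σ, rfl⟩ := hex a ha
    exact ⟨⟨c, ⟨(σ : Equiv.Perm GolayPt), σ.2, c, ha⟩⟩, σ.2, rfl⟩
  choose f hf hf' using hex'
  have := Fintype.ofFinite A
  have := Fintype.ofFinite T
  have h1 : (Finset.univ : Finset A).card ≤ k * (Finset.univ.image fun a : A => (f a).2).card := by
    refine Finset.card_le_mul_card_image _ _ ?_
    intro b hb
    obtain ⟨a₀, -, ha₀⟩ := Finset.mem_image.1 hb
    have hbM : (b : Equiv.Perm GolayPt) ∈ M24 := by rw [← ha₀]; exact hf a₀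
    have hmem : ∀ a ∈ Finset.univ.filter (fun a : A => (f a).2 = b), s (f a).1 ⟨b, hbM⟩ ∈ A := by
      intro a ha
      have h2 := (Finset.mem_filter.1 ha).2
      have h3 := hf' a
      have h4 : s (f a).1 ⟨b, hbM⟩ = a := by
        rw [h3]
        congr 1
        exact Subtype.ext (congrArg (fun x : T => (x : Equiv.Perm GolayPt)) h2.symm)
      rw [h4]
      exact a.2
    refine le_trans ?_ (hk ⟨b, hbM⟩)
    have hfin : Finite {c // s c ⟨b, hbM⟩ ∈ A} := inferInstance
    have h8 : (Finset.univ.filter (fun a : A => (f a).2 = b)).card =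
        Nat.card ↥(Finset.univ.filter (fun a : A => (f a).2 = b)) := by
      rw [Nat.card_eq_fintype_card, Fintype.card_coe]
    rw [h8]
    refine Nat.card_le_card_of_injective
      (fun a : ↥(Finset.univ.filter (fun a : A => (f a).2 = b)) =>
        (⟨(f a).1, hmem a a.2⟩ : {c // s c ⟨b, hbM⟩ ∈ A})) ?_
    intro a a' haa
    have h5 : (f a).1 = (f a').1 := congrArg Subtype.val haa
    have h6 := (Finset.mem_filter.1 a.2).2
    have h7 := (Finset.mem_filter.1 a'.2).2
    apply Subtype.ext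
    apply Subtype.ext
    rw [hf' a, hf' a']
    congr 1
    exact Subtype.ext (congrArg (fun x : T => (x : Equiv.Perm GolayPt)) (h6.trans h7.symm))
  rw [Nat.card_eq_fintype_card, ← Finset.card_univ]
  refine h1.trans (Nat.mul_le_mul_left _ ?_)
  refine (Finset.card_le_univ _).trans ?_
  rw [← Nat.card_eq_fintype_card]
  exact hT

end mono

theorem card_perm_le {T : Subgroup (Equiv.Perm GolayPt)} (hT : IsMulCommutative T) (hM : ∀ σ ∈ T, σ ∈ M24) :
    Nat.card T ≤ 149 := by
  have h := H993.AbPerm.cube_le hT (D := Set.univ) (fun _ _ _ _ => trivial) (f := 8) (k := 0) H993.AbMathieu.card_pts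
    (by norm_num) (fun a ha S _ hS hf => H993.AbMathieu.fix_nine' (hM a ha) hS hf) (S₀ := ∅) (Set.empty_subset _)
    (Set.ncard_empty _) (fun _ _ p hp => absurd hp (Set.notMem_empty p)) (by norm_num)
  norm_num at h
  by_contra hcon
  push Not at hcon
  have h2 : 150 ^ 3 ≤ Nat.card T ^ 3 := Nat.pow_le_pow_left hcon 3
  omega

end Cfsg.Agent.H157.Ab.CoTool
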